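import Cfsg.Agent.H542.Co3.TabRoot
import Cfsg.Agent.H943.E8Tab

/-!
# `E8(q)`, `q` odd: the `(-1)`-eigenspaces of the elements of order dividing 4 (helper542, S1920, box X0)

`m g` = dimension of the `(-1)`-eigenspace of `g` on the adjoint module (dimension 248).

* `mE8_two` : `g * g = 1`, `g ≠ 1` : `m g` is 112 or 128;
* `mE8_four` : `g * g = z`, `m z = 112` : `m g ∈ {2, 54, 66, 70}`; `m z = 128` : `m g ∈ {28, 56, 60}`.
-/

set_option autoImplicit false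
set_option maxRecDepth 100000

namespace Cfsg.Agent.H542.Co3.X0E8

open Cfsg.Lie Cfsg.Agent.ChevalleyStructure Cfsg.Agent.ChevalleyStructure.CoxeterGeomTypes Cfsg.Agent.Nodes.RGDChev
open Cfsg.Agent.H167.Co3 Cfsg.Agent.H542.Co3.Tab

/-- half of the pairs `(m (g * g), m g)` -/
def L8 : List (ℕ × ℕ) :=
  [(0, 0), (0, 56), (0, 64), (56, 1), (56, 27), (56, 33), (56, 35), (64, 14), (64, 28), (64, 30)]

theorem check8 : check 8 7 Cfsg.Agent.H943.E8Tab.R8 L8 = true := by decide +kernel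

theorem length8 : Cfsg.Agent.H943.E8Tab.R8.length < 2 ^ 7 := by decide +kernel

theorem lt8 : ∀ x ∈ L8, x.1 < 2 ^ 7 ∧ x.2 < 2 ^ 7 := by decide

variable {F : Type} [Field F] [Fintype F]

theorem of_mem {a b x y : ℕ} (hab : (a, b) ∈ L8) (ha : x = 2 * a) (hb : y = 2 * b) :
    (x = 0 ∧ y = 0) ∨ (x = 0 ∧ y = 112) ∨ (x = 0 ∧ y = 128) ∨ (x = 112 ∧ y = 2) ∨ (x = 112 ∧ y = 54) ∨
    (x = 112 ∧ y = 66) ∨ (x = 112 ∧ y = 70) ∨ (x = 128 ∧ y = 28) ∨ (x = 128 ∧ y = 56) ∨ (x = 128 ∧ y = 60) := by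
  simp only [L8, List.mem_cons, Prod.mk.injEq, List.not_mem_nil, or_false] at hab
  rcases hab with h | h | h | h | h | h | h | h | h | h <;> obtain ⟨rfl, rfl⟩ := h <;> subst ha <;> subst hb <;> simp

/-- the pairs `(m (g * g), m g)`, `g ^ 4 = 1` -/
theorem mL_mem (h2 : (2 : F) ≠ 0) {g : ↥(chevE8.group F)} (h4 : g ^ 4 = 1) {x y : ℕ}
    (hx : mL chevE8 (g * g) = x) (hy : mL chevE8 g = y) :
    (x = 0 ∧ y = 0) ∨ (x = 0 ∧ y = 112) ∨ (x = 0 ∧ y = 128) ∨ (x = 112 ∧ y = 2) ∨ (x = 112 ∧ y = 54) ∨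
    (x = 112 ∧ y = 66) ∨ (x = 112 ∧ y = 70) ∨ (x = 128 ∧ y = 28) ∨ (x = 128 ∧ y = 56) ∨ (x = 128 ∧ y = 60) := by
  obtain ⟨a, b, hab, ha, hb⟩ := mem_tab Cfsg.Agent.H943.E8Tab.e8T h2 Cfsg.Agent.H943.E8Tab.tab8 check8 length8 lt8 h4
  exact of_mem hab (hx.symm.trans ha) (hy.symm.trans hb)

/-- **Involutions of `E8(q)`, `q` odd.** -/
theorem mE8_two (h2 : (2 : F) ≠ 0) {g : ↥(chevE8.group F)} (h : g * g = 1) (hg : g ≠ 1) :
    Module.finrank F ↥(LinearMap.ker (H392.KKL.rho chevE8 F g + 1)) = 112 ∨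
    Module.finrank F ↥(LinearMap.ker (H392.KKL.rho chevE8 F g + 1)) = 128 := by
  rw [← mL_rho]
  have h4 : g ^ 4 = 1 := by
    rw [show (4 : ℕ) = 2 * 2 from rfl, pow_mul, pow_two g, h, one_pow]
  have h0 := mL_ne_zero h hg
  have h1 : mL chevE8 (g * g) = 0 := by
    rw [h, mL_rho, map_one]
    have : LinearMap.ker ((1 : Module.End F (chevE8.Idx → F)) + 1) = ⊥ := by
      rw [LinearMap.ker_eq_bot']
      intro v hv
      have h3 : (2 : F) • v = 0 := by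
        rw [two_smul]
        exact hv
      exact (smul_eq_zero.1 h3).resolve_left h2
    rw [this, finrank_bot]
  have h5 := mL_mem h2 h4 h1 rfl
  generalize mL chevE8 g = y at h0 h5 ⊢
  omega

/-- **Square roots of involutions of `E8(q)`, `q` odd**: `m z = 112`. -/
theorem mE8_four_112 (h2 : (2 : F) ≠ 0) {g z : ↥(chevE8.group F)} (hg : g * g = z) (hz : z * z = 1)
    (hm : Module.finrank F ↥(LinearMap.ker (H392.KKL.rho chevE8 F z + 1)) = 112) :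
    Module.finrank F ↥(LinearMap.ker (H392.KKL.rho chevE8 F g + 1)) ∈ ({2, 54, 66, 70} : Set ℕ) := by
  rw [← mL_rho] at hm ⊢
  have h4 : g ^ 4 = 1 := by
    rw [show (4 : ℕ) = 2 * 2 from rfl, pow_mul, pow_two g, hg, pow_two, hz]
  rw [← hg] at hm
  have h5 := mL_mem h2 h4 hm rfl
  generalize mL chevE8 g = y at h5 ⊢
  simp only [Set.mem_insert_iff, Set.mem_singleton_iff]
  omega

/-- **Square roots of involutions of `E8(q)`, `q` odd**: `m z = 128`. -/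
theorem mE8_four_128 (h2 : (2 : F) ≠ 0) {g z : ↥(chevE8.group F)} (hg : g * g = z) (hz : z * z = 1)
    (hm : Module.finrank F ↥(LinearMap.ker (H392.KKL.rho chevE8 F z + 1)) = 128) :
    Module.finrank F ↥(LinearMap.ker (H392.KKL.rho chevE8 F g + 1)) ∈ ({28, 56, 60} : Set ℕ) := by
  rw [← mL_rho] at hm ⊢
  have h4 : g ^ 4 = 1 := by
    rw [show (4 : ℕ) = 2 * 2 from rfl, pow_mul, pow_two g, hg, pow_two, hz]
  rw [← hg] at hm
  have h5 := mL_mem h2 h4 hm rfl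
  generalize mL chevE8 g = y at h5 ⊢
  simp only [Set.mem_insert_iff, Set.mem_singleton_iff]
  omega

end Cfsg.Agent.H542.Co3.X0E8
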