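import Mathlib

/-!
# Truth tables over `(Z/4)^l` (helper542, S1920)

For a list `R` of vectors with natural coordinates and a vector `v : Fin l → ZMod 4`, let `c₁` be the number of `r ∈ R`
with `⟨r, v⟩` odd and `c₂` the number with `⟨r, v⟩ = 2`. `check l n R L = true` implies that `(c₁, c₂)` lies in the list
`L`, for all `v`. The check works with truth tables: a function on the `4 ^ l` vectors is a natural number with `4 ^ l`
binary digits.
-/

set_option autoImplicit false

namespace Cfsg.Agent.H542.Co3.Tab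

/-! ### truth tables of the coordinates -/

/-- the truth table of the binary digit `j`, on `2 ^ n` positions -/
def sl : ℕ → ℕ → ℕ
  | 0, _ => 0
  | n + 1, j => if j = n then (2 ^ 2 ^ n - 1) * 2 ^ 2 ^ n else sl n j * (2 ^ 2 ^ n + 1)

theorem sl_lt : ∀ n j : ℕ, sl n j < 2 ^ 2 ^ n
  | 0, _ => by simp [sl]
  | n + 1, j => by
    have h := sl_lt n j
    have h1 : 0 < 2 ^ 2 ^ n := by positivity
    have h2 : (2 : ℕ) ^ 2 ^ (n + 1) = 2 ^ 2 ^ n * 2 ^ 2 ^ n := by rw [← pow_add]; congr 1; ring
    rw [sl, h2]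
    split_ifs
    · exact Nat.mul_lt_mul_of_pos_right (Nat.sub_lt h1 one_pos) h1
    · generalize 2 ^ 2 ^ n = a at *
      nlinarith

theorem testBit_sl : ∀ n j : ℕ, j < n → ∀ p < 2 ^ n, (sl n j).testBit p = p.testBit j
  | 0, j, h => absurd h (Nat.not_lt_zero j)
  | n + 1, j, h => by
    intro p hp
    rw [sl]
    split_ifs with hj
    · subst hj
      rw [mul_comm, ← add_zero (2 ^ 2 ^ j * (2 ^ 2 ^ j - 1)), Nat.testBit_two_pow_mul_add _ (by positivity),
        Nat.zero_testBit, Nat.testBit_two_pow_sub_one]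
      rcases lt_or_ge p (2 ^ j) with h1 | h1
      · rw [if_pos h1, Nat.testBit_lt_two_pow h1]
      · rw [if_neg (not_lt.2 h1)]
        obtain ⟨q, rfl⟩ := Nat.exists_eq_add_of_le h1
        have hq : q < 2 ^ j := by rw [pow_succ] at hp; omega
        rw [Nat.testBit_two_pow_add_eq, Nat.testBit_lt_two_pow hq]
        simp [hq]
    · have hjn : j < n := by omega
      have e1 : sl n j * (2 ^ 2 ^ n + 1) = 2 ^ 2 ^ n * sl n j + sl n j := by ring
      rw [e1, Nat.testBit_two_pow_mul_add _ (sl_lt n j)]
      rcases lt_or_ge p (2 ^ n) with h1 | h1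
      · rw [if_pos h1, testBit_sl n j hjn p h1]
      · rw [if_neg (not_lt.2 h1)]
        obtain ⟨q, rfl⟩ := Nat.exists_eq_add_of_le h1
        have hq : q < 2 ^ n := by rw [pow_succ] at hp; omega
        rw [Nat.add_sub_cancel_left, testBit_sl n j hjn q hq, Nat.testBit_two_pow_add_gt hjn]

/-! ### tables with values in `Z/4` -/

/-- addition of two tables with values in `Z/4` -/
def add4 (x y : ℕ × ℕ) : ℕ × ℕ := (x.1 ^^^ y.1, (x.2 ^^^ y.2) ^^^ (x.1 &&& y.1))

/-- the value at `p` -/
def v4 (p : ℕ) (x : ℕ × ℕ) : ZMod 4 := ((x.1.testBit p).toNat : ZMod 4) + 2 * ((x.2.testBit p).toNat : ZMod 4)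

theorem v4_add4 (p : ℕ) (x y : ℕ × ℕ) : v4 p (add4 x y) = v4 p x + v4 p y := by
  unfold v4 add4
  simp only [Nat.testBit_xor, Nat.testBit_and]
  cases x.1.testBit p <;> cases y.1.testBit p <;> cases x.2.testBit p <;> cases y.2.testBit p <;> decide

/-- multiples -/
def mul4 : ℕ → ℕ × ℕ → ℕ × ℕ
  | 0, _ => (0, 0)
  | n + 1, x => add4 (mul4 n x) x

theorem v4_zero (p : ℕ) : v4 p (0, 0) = 0 := by
  simp [v4]

theorem v4_mul4 (p : ℕ) (x : ℕ × ℕ) : ∀ n : ℕ, v4 p (mul4 n x) = n * v4 p x
  | 0 => by rw [mul4, v4_zero]; simp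
  | n + 1 => by rw [mul4, v4_add4, v4_mul4 p x n]; push_cast; ring

/-- linear combinations -/
def dot : List ℕ → List (ℕ × ℕ) → ℕ × ℕ
  | a :: as, x :: xs => add4 (mul4 a x) (dot as xs)
  | _, _ => (0, 0)

/-- linear combinations of values -/
def dotV : List ℕ → List (ZMod 4) → ZMod 4
  | a :: as, x :: xs => a * x + dotV as xs
  | _, _ => 0

theorem v4_dot (p : ℕ) : ∀ (a : List ℕ) (x : List (ℕ × ℕ)), v4 p (dot a x) = dotV a (x.map (v4 p))
  | [], _ => by simp only [dot, dotV, v4_zero]
  | _ :: _, [] => by simp only [dot, List.map_nil, dotV, v4_zero]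
  | a :: as, x :: xs => by rw [dot, List.map_cons, dotV, v4_add4, v4_mul4, v4_dot p as xs]

/-! ### counters -/

/-- add one table to a counter -/
def inc : List ℕ → ℕ → List ℕ
  | [], _ => []
  | c :: cs, b => (c ^^^ b) :: inc cs (c &&& b)

/-- the value of a counter at `p` -/
def cv (p : ℕ) : List ℕ → ℕ
  | [] => 0
  | c :: cs => (c.testBit p).toNat + 2 * cv p cs

theorem inc_length : ∀ (cs : List ℕ) (b : ℕ), (inc cs b).length = cs.length
  | [], _ => rfl
  | c :: cs, b => by rw [inc, List.length_cons, List.length_cons, inc_length cs]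

theorem cv_inc (p : ℕ) : ∀ (cs : List ℕ) (b : ℕ), cv p (inc cs b) ≡ cv p cs + (b.testBit p).toNat [MOD 2 ^ cs.length]
  | [], b => by simp [Nat.modEq_one]
  | c :: cs, b => by
    rw [inc, cv, cv, List.length_cons, pow_succ']
    have h := (cv_inc p cs (c &&& b)).mul_left' 2
    rw [Nat.testBit_and] at h
    have h2 := h.add_left ((c ^^^ b).testBit p).toNat
    refine h2.trans ?_
    rw [Nat.testBit_xor]
    cases c.testBit p <;> cases b.testBit p <;> simp [mul_add] <;> rw [Nat.ModEq] <;> congr 1 <;> ring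

/-- zero counter -/
def zer (n : ℕ) : List ℕ := List.replicate n 0

theorem cv_zer (p : ℕ) : ∀ n : ℕ, cv p (zer n) = 0
  | 0 => rfl
  | n + 1 => by
    have := cv_zer p n
    rw [zer, List.replicate_succ, cv]
    rw [zer] at this
    rw [this]
    simp

/-- count -/
def cnt (n : ℕ) : List ℕ → List ℕ
  | [] => zer n
  | b :: bs => inc (cnt n bs) b

theorem cnt_length (n : ℕ) : ∀ bs : List ℕ, (cnt n bs).length = n
  | [] => by simp [cnt, zer]
  | b :: bs => by rw [cnt, inc_length, cnt_length n bs]

theorem cv_cnt (p n : ℕ) : ∀ bs : List ℕ, cv p (cnt n bs) ≡ (bs.countP fun b => b.testBit p) [MOD 2 ^ n]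
  | [] => by rw [cnt, cv_zer]; rfl
  | b :: bs => by
    rw [cnt]
    have h := cv_inc p (cnt n bs) b
    rw [cnt_length] at h
    refine h.trans (((cv_cnt p n bs).add_right _).trans ?_)
    rw [List.countP_cons]
    cases b.testBit p <;> rfl

theorem cv_lt (p : ℕ) : ∀ cs : List ℕ, cv p cs < 2 ^ cs.length
  | [] => by simp [cv]
  | c :: cs => by
    have := cv_lt p cs
    rw [cv, List.length_cons, pow_succ']
    have h1 : (c.testBit p).toNat ≤ 1 := by cases c.testBit p <;> simp
    omega

theorem cv_cnt_eq (p n : ℕ) (bs : List ℕ) (h : bs.length < 2 ^ n) :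
    cv p (cnt n bs) = bs.countP fun b => b.testBit p := by
  have h1 := cv_cnt p n bs
  have h2 := cv_lt p (cnt n bs)
  rw [cnt_length] at h2
  exact Nat.ModEq.eq_of_lt_of_lt h1 h2 (List.countP_le_length.trans_lt h)

/-! ### the test of the values -/

/-- the table of the positions where the counter has the value `a` -/
def eqc (full : ℕ) : List ℕ → ℕ → ℕ
  | [], _ => full
  | c :: cs, a => (if a % 2 = 1 then c else c ^^^ full) &&& eqc full cs (a / 2)

theorem eqc_spec {full p : ℕ} (hp : full.testBit p = true) : ∀ (cs : List ℕ) (a : ℕ), a < 2 ^ cs.length →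
    (eqc full cs a).testBit p = true → cv p cs = a
  | [], a, ha => by
    intro _
    simp at ha
    rw [cv, ha]
  | c :: cs, a, ha => by
    intro h
    rw [eqc, Nat.testBit_and, Bool.and_eq_true] at h
    rw [List.length_cons, pow_succ'] at ha
    rw [cv, eqc_spec hp cs (a / 2) (by omega) h.2]
    have h1 := h.1
    split_ifs at h1 with h2
    · rw [h1]; simp; omega
    · rw [Nat.testBit_xor, hp] at h1
      have : c.testBit p = false := by
        cases hc : c.testBit p
        · rfl
        · rw [hc] at h1; exact absurd h1 (by decide)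
      rw [this]; simp; omega

/-- the union of the tables for the pairs of `L` -/
def good (full : ℕ) (cs ds : List ℕ) : List (ℕ × ℕ) → ℕ
  | [] => 0
  | x :: L => (eqc full cs x.1 &&& eqc full ds x.2) ||| good full cs ds L

theorem good_spec {full p n : ℕ} (hp : full.testBit p = true) {cs ds : List ℕ} (hcs : cs.length = n)
    (hds : ds.length = n) : ∀ (L : List (ℕ × ℕ)), (∀ x ∈ L, x.1 < 2 ^ n ∧ x.2 < 2 ^ n) →
    (good full cs ds L).testBit p = true → (cv p cs, cv p ds) ∈ L
  | [], _, h => by simp [good] at h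
  | x :: L, hL, h => by
    rw [good, Nat.testBit_or, Bool.or_eq_true] at h
    rcases h with h | h
    · rw [Nat.testBit_and, Bool.and_eq_true] at h
      have hx := hL x (by simp)
      rw [eqc_spec hp cs x.1 (by rw [hcs]; exact hx.1) h.1, eqc_spec hp ds x.2 (by rw [hds]; exact hx.2) h.2]
      simp
    · exact List.mem_cons_of_mem _ (good_spec hp hcs hds L (fun y hy => hL y (by simp [hy])) h)

/-! ### the check -/

/-- the tables of the coordinates -/
def coords (l : ℕ) : List (ℕ × ℕ) := (List.range l).map fun i => (sl (2 * l) (2 * i), sl (2 * l) (2 * i + 1))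

/-- the check -/
def check (l n : ℕ) (R : List (List ℕ)) (L : List (ℕ × ℕ)) : Bool :=
  (fun (T : List (ℕ × ℕ)) => Nat.beq (good (2 ^ 2 ^ (2 * l) - 1) (cnt n (T.map fun x => x.1))
    (cnt n (T.map fun x => x.2 ^^^ (x.1 &&& x.2))) L) (2 ^ 2 ^ (2 * l) - 1)) (R.map fun r => dot r (coords l))

/-- **Correctness of the check**. -/
theorem check_spec {l n : ℕ} {R : List (List ℕ)} {L : List (ℕ × ℕ)} (h : check l n R L = true)
    (hR : R.length < 2 ^ n) (hL : ∀ x ∈ L, x.1 < 2 ^ n ∧ x.2 < 2 ^ n) (v : Fin l → ZMod 4) :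
    (R.countP (fun r => decide (dotV r (List.ofFn v) = 1 ∨ dotV r (List.ofFn v) = 3)),
      R.countP (fun r => decide (dotV r (List.ofFn v) = 2))) ∈ L := by
  classical
  -- the position of `v`
  set f : Fin (2 * l) → Bool := fun j => (v ⟨j / 2, by omega⟩).val.testBit (j % 2) with hf
  set p := Nat.ofBits f with hpd
  have hp : p < 2 ^ (2 * l) := Nat.ofBits_lt_two_pow f
  set full := 2 ^ 2 ^ (2 * l) - 1 with hfull
  have hpf : full.testBit p = true := by
    rw [hfull, Nat.testBit_two_pow_sub_one]
    simpa using hp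
  have hco : (coords l).map (v4 p) = List.ofFn v := by
    rw [coords, List.map_map]
    apply List.ext_getElem
    · simp
    · intro i h1 h2
      have hi : i < l := by simpa using h1
      rw [List.getElem_map, List.getElem_range, List.getElem_ofFn, Function.comp_apply]
      unfold v4
      rw [testBit_sl _ _ (by omega) _ hp, testBit_sl _ _ (by omega) _ hp, hpd,
        Nat.testBit_ofBits_lt _ _ (by omega), Nat.testBit_ofBits_lt _ _ (by omega)]
      simp only [hf]
      have e1 : (⟨2 * i / 2, by omega⟩ : Fin l) = ⟨i, hi⟩ := Fin.ext (by simp)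
      have e2 : (⟨(2 * i + 1) / 2, by omega⟩ : Fin l) = ⟨i, hi⟩ := Fin.ext (by simp; omega)
      rw [e1, e2]
      have e3 : 2 * i % 2 = 0 := by omega
      have e4 : (2 * i + 1) % 2 = 1 := by omega
      rw [e3, e4]
      generalize v ⟨i, hi⟩ = a
      revert a
      decide
  have hd : ∀ r : List ℕ, v4 p (dot r (coords l)) = dotV r (List.ofFn v) := fun r => by rw [v4_dot, hco]
  rw [check] at h
  have h1 := Nat.eq_of_beq_eq_true h
  rw [← hfull] at h1
  have h2 := hpf
  rw [← h1] at h2
  have h3 := good_spec hpf (cnt_length n _) (cnt_length n _) L hL h2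
  rw [cv_cnt_eq _ _ _ (by simpa using hR), cv_cnt_eq _ _ _ (by simpa using hR), List.map_map, List.map_map,
    List.countP_map, List.countP_map] at h3
  convert h3 using 2
  · refine List.countP_congr fun r _ => ?_
    rw [← hd]
    simp only [Function.comp_apply]
    unfold v4
    cases (dot r (coords l)).1.testBit p <;> cases (dot r (coords l)).2.testBit p <;> decide
  · refine List.countP_congr fun r _ => ?_
    rw [← hd]
    simp only [Function.comp_apply, Nat.testBit_xor, Nat.testBit_and]
    unfold v4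
    cases (dot r (coords l)).1.testBit p <;> cases (dot r (coords l)).2.testBit p <;> decide

end Cfsg.Agent.H542.Co3.Tab
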