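import Cfsg.Agent.H542.Co3.Tab
import Cfsg.Agent.H944.Tab
import Cfsg.Agent.H167.Co3.X0Gen

/-!
# Numbers of roots by value (helper542, S1920)

`g ^ 4 = 1` in `D.group F`, `F` finite of odd order, `R` the table of the positive roots of `D` (`chkTab D l R = true`).
If `check l n R L = true`, then `(mL D (g * g), mL D g) = (2 * a, 2 * b)` with `(a, b) ∈ L`; here `mL D g` is the dimension
of the `(-1)`-eigenspace of `g` on the adjoint module.
-/

set_option autoImplicit false

namespace Cfsg.Agent.H542.Co3.Tab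

open Cfsg.Lie Cfsg.Agent.ChevalleyStructure Cfsg.Agent.ChevalleyStructure.CoxeterGeomTypes Cfsg.Agent.Nodes.RGDChev
open Cfsg.Agent.H944.RootVals Cfsg.Agent.H944.Tab Cfsg.Agent.H167.Co3

theorem dotV_eq : ∀ (l : ℕ) (r : List ℕ) (v : Fin l → ZMod 4), dotV r (List.ofFn v) = dotF r v
  | 0, r, v => by
    rw [List.ofFn_zero]
    unfold dotF
    cases r <;> simp [dotV]
  | l + 1, [], v => by
    rw [List.ofFn_succ, dotF]
    simp [dotV]
  | l + 1, a :: r, v => by
    rw [List.ofFn_succ, dotV, dotV_eq l r, dotF, dotF, Fin.sum_univ_succ]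
    simp

theorem mod4 (n : ℤ) : n % 4 = 2 ↔ ((n : ℤ) : ZMod 4) = 2 := by
  have h := ZMod.intCast_eq_intCast_iff' n 2 4
  rw [show ((2 : ℤ) : ZMod 4) = 2 from rfl] at h
  rw [h]
  norm_num

theorem mod2 (n : ℤ) : n % 2 = 1 ↔ ((n : ℤ) : ZMod 4) = 1 ∨ ((n : ℤ) : ZMod 4) = 3 := by
  have h := ZMod.intCast_eq_intCast_iff' n 1 4
  have h' := ZMod.intCast_eq_intCast_iff' n 3 4
  rw [show ((1 : ℤ) : ZMod 4) = 1 from rfl] at h
  rw [show ((3 : ℤ) : ZMod 4) = 3 from rfl] at h'
  rw [h, h']
  norm_num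
  omega

variable {D : ChevalleyDatum} {l : ℕ}

theorem card_val {S : Type*} [DecidableEq S] (n : ℕ) (f : Fin n → S) (P : S → Prop) [DecidablePred P] :
    Nat.card {s : Fin n // P (f s)} = ((Finset.univ : Finset (Fin n)).val.map f).countP P := by
  classical
  rw [Nat.card_eq_fintype_card, Fintype.card_subtype, Multiset.countP_map]
  rfl

/-- numbers of roots from the table of the positive roots -/
theorem card_root {R : List (List ℕ)} (hR : chkTab D l R = true) (e : Fin l → ℤ) (P : ZMod 4 → Prop)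
    [DecidablePred P] (hP : ∀ a, P (-a) ↔ P a) :
    Nat.card {s : Fin D.nroots // P ((pr e (vec D l s) : ℤ) : ZMod 4)} =
      2 * R.countP fun r => decide (P (dotV r (List.ofFn fun i => ((e i : ℤ) : ZMod 4)))) := by
  classical
  rw [card_val D.nroots (fun s : Fin D.nroots => ((pr e (vec D l s) : ℤ) : ZMod 4)) P]
  have h1 : (Finset.univ : Finset (Fin D.nroots)).val.map (fun s : Fin D.nroots => ((pr e (vec D l s) : ℤ) : ZMod 4)) =
      ms D l (fun i => ((e i : ℤ) : ZMod 4)) := by
    unfold ms pr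
    refine Multiset.map_congr rfl fun s _ => ?_
    push_cast
    rfl
  rw [h1, ms_tab hR, Multiset.countP_add, Multiset.coe_countP, Multiset.coe_countP, List.countP_map, List.countP_map,
    two_mul]
  congr 1
  · refine List.countP_congr fun r _ => ?_
    rw [dotV_eq, Function.comp_apply]
  · refine List.countP_congr fun r _ => ?_
    rw [dotV_eq, Function.comp_apply, decide_eq_true_iff, decide_eq_true_iff, hP]

variable {M : CoxeterMatrix (Fin l)} (hp : IsType D l M)

include hp in
/-- **The dimensions of the `(-1)`-eigenspaces of `g` and `g * g`**, for `g ^ 4 = 1`. -/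
theorem mem_tab {F : Type} [Field F] [Fintype F] (h2 : (2 : F) ≠ 0) {n : ℕ} {R : List (List ℕ)}
    {L : List (ℕ × ℕ)} (hR : chkTab D l R = true) (hc : check l n R L = true) (hn : R.length < 2 ^ n)
    (hL : ∀ x ∈ L, x.1 < 2 ^ n ∧ x.2 < 2 ^ n) {g : ↥(D.group F)} (h4 : g ^ 4 = 1) :
    ∃ a b : ℕ, (a, b) ∈ L ∧ mL D (g * g) = 2 * a ∧ mL D g = 2 * b := by
  classical
  obtain ⟨e, he1, he2, -, -⟩ := exists_exp hp h2 h4
  refine ⟨_, _, check_spec hc hn hL (fun i => ((e i : ℤ) : ZMod 4)), ?_, ?_⟩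
  · rw [he2]
    have := card_root hR e (fun a => a = 1 ∨ a = 3) (by decide)
    rw [← this]
    exact Nat.card_congr (Equiv.subtypeEquivRight fun s => mod2 _)
  · rw [he1]
    have := card_root hR e (fun a => a = 2) (by decide)
    rw [← this]
    exact Nat.card_congr (Equiv.subtypeEquivRight fun s => mod4 _)

/-- an element of order 2 has a nonzero `(-1)`-eigenspace -/
theorem mL_ne_zero {F : Type} [Field F] {g : ↥(D.group F)} (h : g * g = 1) (hg : g ≠ 1) :
    mL D g ≠ 0 := by
  classical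
  intro h0
  rw [mL_rho] at h0
  have hk : LinearMap.ker (H392.KKL.rho D F g + 1) = ⊥ := Submodule.finrank_eq_zero.1 h0
  apply hg
  have h3 : (H392.KKL.rho D F g + 1) * (H392.KKL.rho D F g - 1) = 0 := by
    have h4 : H392.KKL.rho D F g * H392.KKL.rho D F g = 1 := by rw [← map_mul, h, map_one]
    rw [add_mul, mul_sub, h4]
    simp
  have h5 : H392.KKL.rho D F g - 1 = 0 := by
    refine LinearMap.ext fun v => ?_
    have h6 := LinearMap.congr_fun h3 v
    rw [Module.End.mul_apply, LinearMap.zero_apply] at h6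
    have h7 : (H392.KKL.rho D F g - 1) v ∈ LinearMap.ker (H392.KKL.rho D F g + 1) := h6
    rw [hk, Submodule.mem_bot] at h7
    rw [h7]
    rfl
  have h6 : H392.KKL.rho D F g = 1 := sub_eq_zero.1 h5
  rw [H392.KKL.rho_apply] at h6
  have h7 : Matrix.toLin' (((g : ↥(D.group F)) : GL D.Idx F) : Matrix D.Idx D.Idx F) = Matrix.toLin' 1 := by
    rw [h6, Matrix.toLin'_one]
    rfl
  exact Subtype.ext (Units.ext (Matrix.toLin'.injective h7))

end Cfsg.Agent.H542.Co3.Tab
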